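import Cfsg.Agent.H835.Th2.Coord

/-!
The first steps for Theorem II: the group `CV A` of the elements commuting with all `a u9` modulo the centre.
-/

set_option autoImplicit false
set_option linter.style.longLine false

namespace Cfsg.Agent.H835.Th2

open Cfsg.Agent.H776.ThS Subgroup

variable {Q : Subgroup P} {A : Set (P → P)}

/-- the elements commuting with all `a u9` modulo the centre -/
def CV (A : Set (P → P)) : Subgroup P where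
  carrier := {x | ∀ a ∈ A, Commute (π x) (π (a u9))}
  one_mem' := fun a _ => by rw [map_one]; exact Commute.one_left _
  mul_mem' := fun {x y} hx hy a ha => by rw [map_mul]; exact (hx a ha).mul_left (hy a ha)
  inv_mem' := fun {x} hx a ha => by rw [map_inv]; exact (hx a ha).inv_left

theorem mem_CV {x : P} : x ∈ CV A ↔ ∀ a ∈ A, Commute (π x) (π (a u9)) := Iff.rfl

theorem map_Z1 (h : Ctx Q A) (hW : Z2 ≤ Q) (hfix : ∀ a ∈ A, a u10 ∈ Z1) {a : P → P} (ha : a ∈ A) {z : P}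
    (hz : z ∈ Z1) : a z ∈ Z1 := by
  obtain ⟨k, rfl⟩ := exists_pow_of_Z1 hz
  rw [h.map_pow ha (hW (Z2_of_Z1 u10_mem))]
  exact pow_mem (hfix a ha) k

theorem le_CV (h : Ctx Q A) (hW : Z2 ≤ Q) (hfix : ∀ a ∈ A, a u10 ∈ Z1) : Q ≤ CV A := by
  intro q hq a ha
  obtain ⟨g, hg, hi⟩ := h.inv a ha
  obtain ⟨z, hz, e⟩ := π_comm.1 (u9_π_comm (g q)).symm
  rw [π_comm]
  refine ⟨a z, map_Z1 h hW hfix ha hz, ?_⟩
  have hgq := h.maps g hg q hq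
  have h9 : u9 ∈ Q := hW u9_mem
  have e2 : a (g q * u9) = a (u9 * g q * z) := by rw [e]
  rw [h.mul a ha _ hgq _ h9, h.mul a ha _ (mul_mem h9 hgq) _ (hW (Z2_of_Z1 hz)), h.mul a ha _ h9 _ hgq, (hi q hq).2] at e2
  exact e2

theorem conj_Z2 (h : Ctx Q A) (hW : Z2 ≤ Q) (hfix : ∀ a ∈ A, a u10 ∈ Z1) {a : P → P} (ha : a ∈ A) {n : P}
    (hn : Commute (π n) (π (a u9))) : ∀ w ∈ Z2, ∃ w' ∈ Z2, n * a w * n⁻¹ = a w' := by
  intro w hw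
  obtain ⟨g, hg, hi⟩ := h.inv a ha
  obtain ⟨k, z, hz, rfl⟩ := exists_pow_of_Z2 hw
  obtain ⟨z1, hz1, e⟩ := π_comm.1 hn
  have h9 : u9 ∈ Q := hW u9_mem
  have hgz := map_Z1 h hW hfix hg hz1
  have hgzQ : g z1 ∈ Q := hW (Z2_of_Z1 hgz)
  have hzQ : z ∈ Q := hW (Z2_of_Z1 hz)
  refine ⟨(u9 * g z1) ^ k * z, mul_mem (pow_mem (mul_mem u9_mem (Z2_of_Z1 hgz)) k) (Z2_of_Z1 hz), ?_⟩
  rw [h.mul a ha _ (pow_mem h9 k) _ hzQ, h.mul a ha _ (pow_mem (mul_mem h9 hgzQ) k) _ hzQ, h.map_pow ha h9,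
    h.map_pow ha (mul_mem h9 hgzQ), h.mul a ha _ h9 _ hgzQ, (hi z1 (hW (Z2_of_Z1 hz1))).2]
  have e1 : n * a u9 * n⁻¹ = a u9 * z1 := by
    rw [e, mul_assoc (a u9 * n), Z1_comm hz1, ← mul_assoc, mul_inv_cancel_right]
  have e2 : n * a z * n⁻¹ = a z := by
    rw [← Z1_comm (map_Z1 h hW hfix ha hz), mul_inv_cancel_right]
  calc n * (a u9 ^ k * a z) * n⁻¹ = (n * a u9 ^ k * n⁻¹) * (n * a z * n⁻¹) := by group
    _ = (a u9 * z1) ^ k * a z := by rw [← conj_pow, e1, e2]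

/-- (M1) -/
theorem CV_eq (h : Ctx Q A) (hSE : SE Q A Z2) (hW : Z2 ≤ Q) (hfix : ∀ a ∈ A, a u10 ∈ Z1)
    (hmov : ∃ a ∈ A, a u9 ∉ Z2) : CV A = Q := by
  by_contra hne
  have hlt : Q < CV A := lt_of_le_of_ne (le_CV h hW hfix) (Ne.symm hne)
  have : Fact (Nat.Prime 3) := ⟨Nat.prime_three⟩
  have : Finite P := inferInstance
  obtain ⟨n, hn, hnQ, hnN⟩ := Cfsg.Agent.H759.exists_mem_normalizer_not_mem (S := (⊤ : Subgroup P))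
    (isPGroup_P.to_subgroup ⊤) le_top hlt
  obtain ⟨a, ha, hau⟩ := hmov
  obtain ⟨w, hw, e⟩ := hSE.conj h hnN hnQ ha h.id_mem (conj_Z2 h hW hfix ha (hn a ha))
    (conj_Z2 h hW hfix h.id_mem (hn _ h.id_mem)) u9 u9_mem
  exact hau (e ▸ hw)

/-- the statement of `t1w` -/
def T1W : Prop := ∀ {Q : Subgroup P} {A : Set (P → P)}, Ctx Q A → SE Q A Z2 → Z2 ≤ Q →
    (∀ a ∈ A, a u10 ∈ Z1) → (∃ a ∈ A, a u9 ∉ Z2) →
    ∀ {y r : P}, y ∈ normalizer (Q : Set P) → y ∉ Q →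
    r ∈ closure {x | x ∈ Z1 ∨ ∃ a ∈ A, x = a u9} → r ^ 3 ∈ Z1 → y * r * y⁻¹ * r⁻¹ ∈ Z1 →
    (∀ a ∈ A, ∃ k : ℕ, ∃ z ∈ Z1, y * a u9 * y⁻¹ = a u9 * r ^ k * z) →
    r ∈ Z2 ∧
    (∀ a ∈ A, a u9 ∉ Z2 → ∀ b ∈ A, ∃ i j : ℕ, ∃ z ∈ Z1, b u9 = a u9 ^ i * u9 ^ j * z) ∧
    (∀ a ∈ A, a u9 ∉ Z2 → ∀ i j : ℕ, ∃ b ∈ A, ∃ k : ℕ, ∃ z ∈ Z1, a u9 ^ i * u9 ^ j = b u9 ^ k * z) ∧
    (∀ n ∈ normalizer (Q : Set P), ∃ k : ℕ, n * y ^ k ∈ Q)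

/-- `t1w` with `r = u9` -/
theorem T1_nine (T : T1W) (h : Ctx Q A) (hSE : SE Q A Z2) (hW : Z2 ≤ Q) (hfix : ∀ a ∈ A, a u10 ∈ Z1)
    (hmov : ∃ a ∈ A, a u9 ∉ Z2) {y : P} (hy : y ∈ normalizer (Q : Set P)) (hyQ : y ∉ Q)
    (hyv : ∀ a ∈ A, ∃ w ∈ Z2, y * a u9 * y⁻¹ = a u9 * w) :
    (∀ a ∈ A, a u9 ∉ Z2 → ∀ b ∈ A, ∃ i j : ℕ, ∃ z ∈ Z1, b u9 = a u9 ^ i * u9 ^ j * z) ∧
    (∀ n ∈ normalizer (Q : Set P), ∃ k : ℕ, n * y ^ k ∈ Q) := by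
  have h1 := T h hSE hW hfix hmov (r := u9) hy hyQ (subset_closure (Or.inr ⟨_, h.id_mem, rfl⟩))
    (by rw [u9_cube]; exact one_mem _) (π_comm_bracket.1 (u9_π_comm y).symm) (fun a ha => by
      obtain ⟨w, hw, e⟩ := hyv a ha
      obtain ⟨k, z, hz, rfl⟩ := exists_pow_of_Z2 hw
      exact ⟨k, z, hz, by rw [e, mul_assoc]⟩)
  exact ⟨h1.2.1, h1.2.2.2⟩

theorem cube_a (h : Ctx Q A) (hW : Z2 ≤ Q) {a : P → P} (ha : a ∈ A) : a u9 ^ 3 = 1 := by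
  rw [← h.map_pow ha (hW u9_mem), u9_cube, h.one ha]

/-- a conjugation mapping `Q` into itself -/
theorem mem_normalizer_of {n : P} (hn : ∀ q ∈ Q, n * q * n⁻¹ ∈ Q) : n ∈ normalizer (Q : Set P) := by
  have h1 : ∀ k : ℕ, ∀ q ∈ Q, n ^ k * q * (n ^ k)⁻¹ ∈ Q := by
    intro k
    induction k with
    | zero => intro q hq; simpa using hq
    | succ k ih =>
      intro q hq
      have := hn _ (ih q hq)
      rw [pow_succ']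
      simpa [mul_assoc] using this
  rw [mem_normalizer_iff]
  intro q
  refine ⟨hn q, fun hq => ?_⟩
  have h2 := h1 (3 ^ 10 - 1) _ hq
  have h3 : n ^ (3 ^ 10 - 1) = n⁻¹ := by
    rw [eq_inv_iff_mul_eq_one, ← pow_succ]
    exact pow3_10 n
  rw [h3] at h2
  simpa [mul_assoc] using h2

theorem mem_normalizer_of' {n : P} (hn : ∀ q ∈ Q, n⁻¹ * q * n ∈ Q) : n ∈ normalizer (Q : Set P) := by
  rw [← inv_inv n]
  apply inv_mem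
  apply mem_normalizer_of
  intro q hq
  rw [inv_inv]
  exact hn q hq

/-- for `y ∈ E1`: commutators in `Z2` -/
theorem conj_of_mul {y v w : P} (hy : y ∈ E1) (hw : w ∈ Z2) (e : v * y = y * v * w) :
    ∃ w ∈ Z2, y * v * y⁻¹ = v * w := by
  refine ⟨w⁻¹, inv_mem hw, ?_⟩
  have h1 : w⁻¹ * y = y * w⁻¹ := Z2_comm (inv_mem hw) hy
  rw [mul_inv_eq_iff_eq_mul, mul_assoc, h1, ← mul_assoc, e, mul_inv_cancel_right]

end Cfsg.Agent.H835.Th2
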