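import Cfsg.Agent.H776.ThCtx
import Cfsg.Agent.H759.FusBasic
import Mathlib.GroupTheory.QuotientGroup.Basic

/-!
Coordinate facts on the model of the Sylow 3-subgroup of the Thompson group, for Theorem II.
-/

set_option autoImplicit false
set_option linter.style.longLine false

namespace Cfsg.Agent.H835.Th2

open Cfsg.Agent.H776.ThS Subgroup

/-! ### the centre and the second centre -/

theorem N5_of_Z3 {w : P} (h : w ∈ Z3) : w ∈ N5 := ⟨h.1, h.2.1, h.2.2.1, h.2.2.2.1, h.2.2.2.2.1⟩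

theorem Z3_of_Z2 {w : P} (h : w ∈ Z2) : w ∈ Z3 :=
  ⟨h.1, h.2.1, h.2.2.1, h.2.2.2.1, h.2.2.2.2.1, h.2.2.2.2.2.1, h.2.2.2.2.2.2.1⟩

theorem Z2_of_Z1 {w : P} (h : w ∈ Z1) : w ∈ Z2 :=
  ⟨h.1, h.2.1, h.2.2.1, h.2.2.2.1, h.2.2.2.2.1, h.2.2.2.2.2.1, h.2.2.2.2.2.2.1, h.2.2.2.2.2.2.2.1⟩

theorem N5_of_Z2 {w : P} (h : w ∈ Z2) : w ∈ N5 := N5_of_Z3 (Z3_of_Z2 h)

theorem N5_of_Z1 {w : P} (h : w ∈ Z1) : w ∈ N5 := N5_of_Z2 (Z2_of_Z1 h)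

/-- commutation with an element of `N5` -/
theorem comm_iff {c x : P} (hc : c ∈ N5) : c * x = x * c ↔ cx c x = c := by
  rw [N5_mul c x hc, mul_right_inj]

theorem Z1_comm {z : P} (hz : z ∈ Z1) (x : P) : z * x = x * z := by
  rw [comm_iff (N5_of_Z1 hz)]
  obtain ⟨h1, h2, h3, h4, h5, h6, h7, h8, h9⟩ := hz
  ext
  all_goals simp [cx, h1, h2, h3, h4, h5, h6, h7, h8, h9]

theorem Z2_comm {w x : P} (hw : w ∈ Z2) (hx : x ∈ E1) : w * x = x * w := by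
  rw [comm_iff (N5_of_Z2 hw)]
  obtain ⟨h1, h2, h3, h4, h5, h6, h7, h8⟩ := hw
  rw [mem_E1] at hx
  ext
  all_goals simp [cx, h1, h2, h3, h4, h5, h6, h7, h8, hx]

theorem Z3_comm {w x : P} (hw : w ∈ Z3) (h1 : x.x1 = 0) (h2 : x.x2 = 0) (h3 : x.x3 = 0) : w * x = x * w := by
  rw [comm_iff (N5_of_Z3 hw)]
  obtain ⟨w1, w2, w3, w4, w5, w6, w7⟩ := hw
  ext
  all_goals simp [cx, h1, h2, h3, w1, w2, w3, w4, w5, w6, w7]

theorem N5_comm {c x : P} (hc : c ∈ N5) (hx : x ∈ N5) : c * x = x * c := by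
  rw [comm_iff hc]
  obtain ⟨h1, h2, h3, h4, h5⟩ := hc
  obtain ⟨k1, k2, k3, k4, k5⟩ := hx
  ext
  all_goals simp [cx, h1, h2, h3, h4, h5, k1, k2, k3, k4, k5]

theorem u10_pow (n : ℕ) : u10 ^ n = ⟨0, 0, 0, 0, 0, 0, 0, 0, 0, (n : ZMod 3)⟩ := by
  induction n with
  | zero => rw [pow_zero, Nat.cast_zero]; rfl
  | succ n ih =>
    rw [pow_succ, ih, mulN _ _ ⟨rfl, rfl, rfl, rfl, rfl⟩, Nat.cast_succ]
    ext <;> simp [u10]

theorem u9_pow (n : ℕ) : u9 ^ n = ⟨0, 0, 0, 0, 0, 0, 0, 0, (n : ZMod 3), 0⟩ := by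
  induction n with
  | zero => rw [pow_zero, Nat.cast_zero]; rfl
  | succ n ih =>
    rw [pow_succ, ih, mulN _ _ ⟨rfl, rfl, rfl, rfl, rfl⟩, Nat.cast_succ]
    ext <;> simp [u9]

theorem u10_mem : u10 ∈ Z1 := ⟨rfl, rfl, rfl, rfl, rfl, rfl, rfl, rfl, rfl⟩

theorem u9_mem : u9 ∈ Z2 := ⟨rfl, rfl, rfl, rfl, rfl, rfl, rfl, rfl⟩

theorem exists_pow_of_Z1 {z : P} (hz : z ∈ Z1) : ∃ k : ℕ, z = u10 ^ k := by
  refine ⟨z.x10.val, ?_⟩
  obtain ⟨h1, h2, h3, h4, h5, h6, h7, h8, h9⟩ := hz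
  rw [u10_pow, ZMod.natCast_zmod_val]
  ext <;> simp [h1, h2, h3, h4, h5, h6, h7, h8, h9]

theorem exists_pow_of_Z2 {w : P} (hw : w ∈ Z2) : ∃ k : ℕ, ∃ z ∈ Z1, w = u9 ^ k * z := by
  obtain ⟨h1, h2, h3, h4, h5, h6, h7, h8⟩ := hw
  refine ⟨w.x9.val, ⟨0, 0, 0, 0, 0, 0, 0, 0, 0, w.x10⟩, ⟨rfl, rfl, rfl, rfl, rfl, rfl, rfl, rfl, rfl⟩, ?_⟩
  rw [u9_pow, ZMod.natCast_zmod_val, mulN _ _ ⟨rfl, rfl, rfl, rfl, rfl⟩]
  ext <;> simp [h1, h2, h3, h4, h5, h6, h7, h8]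

theorem u9_cube : u9 ^ 3 = 1 := by
  rw [u9_pow]
  rfl

instance Z1_normal : Z1.Normal := ⟨fun n hn g => by rw [← Z1_comm hn, mul_inv_cancel_right]; exact hn⟩

/-- the projection modulo the centre -/
def π : P →* P ⧸ Z1 := QuotientGroup.mk' Z1

theorem π_eq_one {x : P} : π x = 1 ↔ x ∈ Z1 := QuotientGroup.eq_one_iff x

theorem π_of_mem {z : P} (hz : z ∈ Z1) : π z = 1 := π_eq_one.2 hz

theorem π_comm {x v : P} : Commute (π x) (π v) ↔ ∃ z ∈ Z1, x * v = v * x * z := by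
  unfold Commute SemiconjBy
  rw [← map_mul, ← map_mul]
  constructor
  · intro h
    refine ⟨(v * x)⁻¹ * (x * v), ?_, by group⟩
    rw [← π_eq_one, map_mul, map_inv, h, inv_mul_cancel]
  · rintro ⟨z, hz, h⟩
    rw [h, map_mul, π_of_mem hz, mul_one]

theorem π_comm_bracket {x v : P} : Commute (π x) (π v) ↔ x * v * x⁻¹ * v⁻¹ ∈ Z1 := by
  rw [← π_eq_one, ← commutatorElement_def, map_commutatorElement, commutatorElement_eq_one_iff_commute]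

/-- equality modulo the centre, in coordinates -/
theorem coordsZ {a b z : P} (hz : z ∈ Z1) (h : a = b * z) : a.x3 = b.x3 ∧ a.x4 = b.x4 ∧ a.x5 = b.x5 ∧ a.x6 = b.x6 ∧
    a.x7 = b.x7 ∧ a.x8 = b.x8 ∧ a.x9 = b.x9 := by
  rw [mulN _ _ (N5_of_Z1 hz)] at h
  obtain ⟨h1, h2, h3, h4, h5, h6, h7, h8, h9⟩ := hz
  rw [h]
  refine ⟨rfl, rfl, rfl, ?_, ?_, ?_, ?_⟩
  · simp [h6]
  · simp [h7]
  · simp [h8]
  · simp [h9]

/-- commutation with an element of `N5` modulo the centre -/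
theorem N5_π_comm {c x : P} (hc : c ∈ N5) : Commute (π c) (π x) ↔
    (x.x1 * c.x6 = 0 ∧ x.x1 * c.x7 = x.x1 ^ 2 * c.x6 ∧
      - x.x4 * c.x6 - x.x3 * c.x7 - x.x2 * c.x8 + x.x2 * c.x6 - x.x1 * x.x3 * c.x6 + x.x1 * x.x2 * c.x7
    - x.x1 ^ 2 * x.x2 * c.x6 = 0) := by
  rw [π_comm]
  have key : (∃ z ∈ Z1, c * x = x * c * z) ↔ ∃ z ∈ Z1, cx c x = c * z := by
    simp only [N5_mul c x hc, mul_assoc, mul_right_inj]
  rw [key]
  constructor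
  · rintro ⟨z, hz, h⟩
    obtain ⟨-, -, -, h6, h7, h8, h9⟩ := coordsZ hz h
    simp only [cx] at h6 h7 h8 h9
    refine ⟨by linear_combination h7, by linear_combination -h8, by linear_combination h9⟩
  · rintro ⟨h7, h8, h9⟩
    refine ⟨⟨0, 0, 0, 0, 0, 0, 0, 0, 0, (cx c x).x10 - c.x10⟩, ⟨rfl, rfl, rfl, rfl, rfl, rfl, rfl, rfl, rfl⟩, ?_⟩
    rw [mulN _ _ ⟨rfl, rfl, rfl, rfl, rfl⟩]
    obtain ⟨c1, c2, c3, c4, c5⟩ := hc
    ext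
    · exact c1.symm
    · exact c2.symm
    · exact c3.symm
    · exact c4.symm
    · exact c5.symm
    · simp [cx]
    · simp only [cx, add_zero]; linear_combination h7
    · simp only [cx, add_zero]; linear_combination -h8
    · simp only [cx, add_zero]; linear_combination h9
    · simp

theorem u9_π_comm (x : P) : Commute (π u9) (π x) := by
  rw [N5_π_comm (N5_of_Z2 u9_mem)]
  refine ⟨?_, ?_, ?_⟩ <;> simp [u9]

end Cfsg.Agent.H835.Th2
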