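import Cfsg.Agent.H835.Th2.CaseB
import Cfsg.Agent.H38.ThT1

/-!
Theorem II for S5228 (task 1135).
-/

set_option autoImplicit false

namespace Cfsg.Agent.H835.Th2

open Cfsg.Agent.H776.ThS Subgroup

theorem thmII {Q : Subgroup P} {A : Set (P → P)} (h : Ctx Q A) (hSE : SE Q A Z2) (hcore : Core Q A) (hW : Z2 ≤ Q)
    (hfix : ∀ a ∈ A, a u10 ∈ Z1) (hmov : ∃ a ∈ A, a u9 ∉ Z2) :
    Q = E2 ∧ ∀ a ∈ A, ∀ w ∈ Z2, a w ∈ Z3 :=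
  thmII_of (fun h1 h2 h3 h4 h5 _ _ h6 h7 h8 h9 h10 h11 =>
    Cfsg.Agent.H38.ThT1.t1w h1 h2 h3 h4 h5 h6 h7 h8 h9 h10 h11) h hSE hcore hW hfix hmov

end Cfsg.Agent.H835.Th2
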